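import Cfsg.Agent.SLn.Basic
import Mathlib.FieldTheory.Finite.Basic
set_option autoImplicit false

/-!
Generation of special linear groups by a monomial element and a transvection.
-/

namespace CfsgLib.SLGenTwo

open Matrix
open Fin.NatCast
open Matrix.SpecialLinearGroup (transvection transvection_coe)

variable {K : Type*} [Field K] {n : ℕ}

/-- The previous index, cyclically. -/
def prev (b : Fin (n + 1)) : Fin (n + 1) := b - 1

theorem prev_val (b : Fin (n + 1)) : (prev b).val = if b.val = 0 then n else b.val - 1 := by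
  rw [prev, Fin.coe_sub_one]
  by_cases h : b = 0
  · rw [if_pos h, if_pos (by rw [h]; rfl)]
  · rw [if_neg h, if_neg (fun e : b.val = 0 => h (Fin.ext e))]

theorem tmul {i j : Fin (n + 1)} (h : i ≠ j) (a b : K) :
    transvection h a * transvection h b = transvection h (a + b) :=
  Subtype.ext (Matrix.transvection_mul_transvection_same i j h a b)

theorem tinv {i j : Fin (n + 1)} (h : i ≠ j) (a : K) : (transvection h a)⁻¹ = transvection h (-a) :=
  inv_eq_of_mul_eq_one_right (by
    rw [tmul, add_neg_cancel]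
    exact Subtype.ext (Matrix.transvection_zero i j))

variable {w : Matrix.SpecialLinearGroup (Fin (n + 1)) K}
variable (hw : (w : Matrix (Fin (n + 1)) (Fin (n + 1)) K) =
  Matrix.of (fun i j => if j.val = i.val + 1 then 1 else if i.val = n ∧ j.val = 0 then (-1) ^ n else 0))
include hw

/-- The sign of a column. -/
theorem w_entry (a b : Fin (n + 1)) : (w : Matrix (Fin (n + 1)) (Fin (n + 1)) K) a b =
    if a = prev b then (if b.val = 0 then (-1) ^ n else 1) else 0 := by
  rw [hw, Matrix.of_apply]
  have ha := a.isLt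
  have hb := b.isLt
  have hp := prev_val b
  have he : a = prev b ↔ a.val = (prev b).val := Fin.ext_iff
  split_ifs at hp ⊢ <;> first | rfl | omega

theorem w_shift {i j : Fin (n + 1)} (hij : i ≠ j) :
    ∃ s : K, s ≠ 0 ∧ ∀ c : K, ∃ h' : prev i ≠ prev j,
      w * transvection hij c * w⁻¹ = transvection h' (s * c) := by
  set t : Fin (n + 1) → K := fun b => if b.val = 0 then (-1) ^ n else 1 with ht
  have ht0 : ∀ b, t b ≠ 0 := fun b => by
    simp only [ht]; split <;> simp
  have h' : prev i ≠ prev j := fun e => hij (sub_left_injective e)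
  refine ⟨t i / t j, div_ne_zero (ht0 i) (ht0 j), fun c => ⟨h', ?_⟩⟩
  rw [mul_inv_eq_iff_eq_mul]
  refine Subtype.ext ?_
  simp only [Matrix.SpecialLinearGroup.coe_mul, transvection_coe, Matrix.transvection, mul_add, add_mul, mul_one,
    one_mul, add_right_inj]
  ext a b
  have e1 : ((w : Matrix (Fin (n + 1)) (Fin (n + 1)) K) * Matrix.single i j c) a b =
      if b = j then (w : Matrix (Fin (n + 1)) (Fin (n + 1)) K) a i * c else 0 := by
    by_cases hb : b = j
    · subst hb; simp
    · simp [hb]
  have e2 : (Matrix.single (prev i) (prev j) (t i / t j * c) * (w : Matrix (Fin (n + 1)) (Fin (n + 1)) K)) a b =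
      if a = prev i then t i / t j * c * (w : Matrix (Fin (n + 1)) (Fin (n + 1)) K) (prev j) b else 0 := by
    by_cases ha : a = prev i
    · subst ha; simp
    · simp [ha]
  rw [e1, e2, w_entry hw, w_entry hw]
  by_cases ha : a = prev i <;> by_cases hb : b = j
  · rw [if_pos hb, if_pos ha, if_pos ha, hb, if_pos rfl]
    show t i * c = t i / t j * c * t j
    field_simp [ht0 j]
  · have hne : prev j ≠ prev b := fun e => hb (sub_left_injective e).symm
    simp only [if_neg hb, if_pos ha, if_neg hne, mul_zero]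
  · rw [if_pos hb, if_neg ha, if_neg ha, zero_mul]
  · rw [if_neg hb, if_neg ha]

theorem gen_of_full (hn : 1 ≤ n) (H : Subgroup (Matrix.SpecialLinearGroup (Fin (n + 1)) K)) (hwH : w ∈ H)
    (h01 : ∀ (h : (0 : Fin (n + 1)) ≠ 1) (c : K), transvection h c ∈ H) : H = ⊤ := by
  haveI : Nontrivial (Fin (n + 1)) := Fin.nontrivial_iff_two_le.mpr (by omega)
  have hone : (0 : Fin (n + 1)) ≠ 1 := by
    intro e
    have := congrArg Fin.val e
    rw [Fin.val_one', Nat.mod_eq_of_lt (by omega)] at this
    simp at this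
  have hstep : ∀ (r : ℕ) (h : (0 : Fin (n + 1)) - (r : Fin (n + 1)) ≠ 1 - (r : Fin (n + 1))) (c : K),
      transvection h c ∈ H := by
    intro r
    induction r with
    | zero =>
      intro h c
      simpa using h01 hone c
    | succ r ih =>
      intro h c
      have hr : (0 : Fin (n + 1)) - (r : Fin (n + 1)) ≠ 1 - (r : Fin (n + 1)) := fun e =>
        hone (sub_left_injective e)
      obtain ⟨s, hs, hc⟩ := w_shift hw hr
      obtain ⟨h', e⟩ := hc (c / s)
      rw [mul_div_cancel₀ c hs] at e
      have hm := e ▸ mul_mem (mul_mem hwH (ih hr (c / s))) (inv_mem hwH)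
      have e0 : prev ((0 : Fin (n + 1)) - (r : Fin (n + 1))) = (0 : Fin (n + 1)) - ((r + 1 : ℕ) : Fin (n + 1)) := by
        rw [prev, Nat.cast_succ]; abel
      have e1 : prev ((1 : Fin (n + 1)) - (r : Fin (n + 1))) = (1 : Fin (n + 1)) - ((r + 1 : ℕ) : Fin (n + 1)) := by
        rw [prev, Nat.cast_succ]; abel
      simp only [e0, e1] at hm
      exact hm
  have hadj : ∀ (i : Fin (n + 1)) (h : i ≠ i + 1) (c : K), transvection h c ∈ H := by
    intro i h c
    have e0 : (0 : Fin (n + 1)) - ((-i).val : Fin (n + 1)) = i := by rw [Fin.cast_val_eq_self, zero_sub, neg_neg]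
    have e1 : (1 : Fin (n + 1)) - ((-i).val : Fin (n + 1)) = i + 1 := by
      rw [Fin.cast_val_eq_self, sub_neg_eq_add]; exact add_comm _ _
    have := hstep (-i).val (by rw [e0, e1]; exact h) c
    simp only [e0, e1] at this
    exact this
  have hdist : ∀ (d : ℕ), d ≤ n → ∀ (i : Fin (n + 1)) (h : i ≠ i + (d : Fin (n + 1))) (c : K),
      transvection h c ∈ H := by
    intro d
    induction d with
    | zero => intro _ i h; exact absurd (by simp) h
    | succ d ih =>
      intro hd i h c
      by_cases hd0 : d = 0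
      · subst hd0
        have e : i + ((0 + 1 : ℕ) : Fin (n + 1)) = i + 1 := by simp
        simp only [e] at h ⊢
        exact hadj i h c
      have hlt : ∀ e : ℕ, 0 < e → e ≤ n → ∀ i : Fin (n + 1), i ≠ i + (e : Fin (n + 1)) := by
        intro e he0 he i hh
        have h2 : ((e : Fin (n + 1))).val = 0 := by
          rw [(add_eq_left.mp hh.symm : (e : Fin (n + 1)) = 0)]; rfl
        rw [Fin.val_natCast, Nat.mod_eq_of_lt (by omega)] at h2
        omega
      have h1 := hlt d (Nat.pos_of_ne_zero hd0) (by omega) i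
      have h2 := hlt 1 one_pos hn (i + (d : Fin (n + 1)))
      have e : i + (d : Fin (n + 1)) + ((1 : ℕ) : Fin (n + 1)) = i + ((d + 1 : ℕ) : Fin (n + 1)) := by
        rw [Nat.cast_add]; exact add_assoc _ _ _
      have h2' : i + (d : Fin (n + 1)) ≠ i + ((d + 1 : ℕ) : Fin (n + 1)) := e ▸ h2
      have m2 : transvection h2' (1 : K) ∈ H := by
        have e' : i + ((d + 1 : ℕ) : Fin (n + 1)) = i + (d : Fin (n + 1)) + 1 := by
          rw [Nat.cast_succ, add_assoc]
        simp only [e'] at h2' ⊢
        exact hadj _ h2' 1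
      have m1 := ih (by omega) i h1 c
      have key := CfsgLib.SLn.commutator_transvection h1 h2' h c 1
      rw [mul_one] at key
      rw [← key, commutatorElement_def]
      exact mul_mem (mul_mem (mul_mem m1 m2) (inv_mem m1)) (inv_mem m2)
  refine CfsgLib.SLn.eq_top_of_transvection _ fun i j hij c => ?_
  have hj : i + (((j - i).val : ℕ) : Fin (n + 1)) = j := by rw [Fin.cast_val_eq_self, add_sub_cancel]
  have := hdist (j - i).val (Nat.lt_succ_iff.mp (j - i).isLt) i (by rw [hj]; exact hij) c
  simp only [hj] at this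
  exact this

omit hw

/-- The parameters of the first root group lying in a subgroup. -/
def params (H : Subgroup (Matrix.SpecialLinearGroup (Fin (n + 1)) K)) (h : (0 : Fin (n + 1)) ≠ 1) : AddSubgroup K where
  carrier := {c | transvection h c ∈ H}
  zero_mem' := by
    show transvection h 0 ∈ H
    rw [show transvection h (0 : K) = 1 from Subtype.ext (by simp [transvection_coe])]
    exact one_mem H
  add_mem' {a b} ha hb := by
    show transvection h (a + b) ∈ H
    rw [← tmul]
    exact mul_mem ha hb
  neg_mem' {a} ha := by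
    show transvection h (-a) ∈ H
    rw [← tinv]
    exact inv_mem ha

theorem conj_diag {D : Matrix.SpecialLinearGroup (Fin (n + 1)) K} {d : Fin (n + 1) → K}
    (hD : (D : Matrix (Fin (n + 1)) (Fin (n + 1)) K) = Matrix.diagonal d) (hd : ∀ i, d i ≠ 0)
    {i j : Fin (n + 1)} (hij : i ≠ j) (c : K) :
    D * transvection hij c * D⁻¹ = transvection hij (d i / d j * c) := by
  rw [mul_inv_eq_iff_eq_mul]
  refine Subtype.ext ?_
  simp only [Matrix.SpecialLinearGroup.coe_mul, transvection_coe, Matrix.transvection, mul_add, add_mul, mul_one,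
    one_mul, add_right_inj, hD]
  ext a b
  simp only [Matrix.diagonal_mul, Matrix.mul_diagonal, Matrix.single_apply]
  split_ifs with h1
  · obtain ⟨rfl, rfl⟩ := h1
    field_simp [hd j]
  · simp

theorem gen_large [Fintype K] (hK : 3 < Fintype.card K) (hn : 1 ≤ n)
    (k : Kˣ) (hk : ∀ u : Kˣ, u ∈ Subgroup.zpowers k)
    (h x w : Matrix.SpecialLinearGroup (Fin (n + 1)) K)
    (hh : (h : Matrix (Fin (n + 1)) (Fin (n + 1)) K) =
      Matrix.diagonal (fun i => if i.val = 0 then (k : K) else if i.val = 1 then ((k⁻¹ : Kˣ) : K) else 1))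
    (hx : (x : Matrix (Fin (n + 1)) (Fin (n + 1)) K) = Matrix.transvection (0 : Fin (n + 1)) (1 : Fin (n + 1)) 1)
    (hw : (w : Matrix (Fin (n + 1)) (Fin (n + 1)) K) =
      Matrix.of (fun i j => if j.val = i.val + 1 then 1 else if i.val = n ∧ j.val = 0 then (-1) ^ n else 0)) :
    Subgroup.closure ({h, x * w} : Set (Matrix.SpecialLinearGroup (Fin (n + 1)) K)) = ⊤ := by
  classical
  set H := Subgroup.closure ({h, x * w} : Set (Matrix.SpecialLinearGroup (Fin (n + 1)) K))
  have hhH : h ∈ H := Subgroup.subset_closure (by simp)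
  have huH : x * w ∈ H := Subgroup.subset_closure (by simp)
  have h1v : ((1 : Fin (n + 1)) : ℕ) = 1 := by rw [Fin.val_one', Nat.mod_eq_of_lt (by omega)]
  have hone : (0 : Fin (n + 1)) ≠ 1 := fun e => by
    have := congrArg Fin.val e
    rw [h1v] at this
    simp at this
  have hxe : x = transvection hone (1 : K) := Subtype.ext (hx.trans (transvection_coe hone 1).symm)
  set d : Fin (n + 1) → K := fun i => if i.val = 0 then (k : K) else if i.val = 1 then ((k⁻¹ : Kˣ) : K) else 1
  have hd : ∀ i, d i ≠ 0 := fun i => by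
    simp only [d]; split_ifs <;> first | exact Units.ne_zero _ | exact one_ne_zero
  have hd01 : d 0 / d 1 = (k : K) ^ 2 := by
    simp only [d, Fin.val_zero, h1v, if_true, one_ne_zero, if_false, Units.val_inv_eq_inv_val]
    field_simp
  -- the shifted diagonal element
  set D := w * h * w⁻¹ with hD'
  have hD : (D : Matrix (Fin (n + 1)) (Fin (n + 1)) K) = Matrix.diagonal (fun i => d (i + 1)) := by
    have e : (D : Matrix (Fin (n + 1)) (Fin (n + 1)) K) * (w : Matrix (Fin (n + 1)) (Fin (n + 1)) K) =
        (w : Matrix (Fin (n + 1)) (Fin (n + 1)) K) * (h : Matrix (Fin (n + 1)) (Fin (n + 1)) K) := by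
      rw [← Matrix.SpecialLinearGroup.coe_mul, ← Matrix.SpecialLinearGroup.coe_mul, hD', inv_mul_cancel_right]
    have hkey : Matrix.diagonal (fun i => d (i + 1)) * (w : Matrix (Fin (n + 1)) (Fin (n + 1)) K) =
        (w : Matrix (Fin (n + 1)) (Fin (n + 1)) K) * (h : Matrix (Fin (n + 1)) (Fin (n + 1)) K) := by
      ext a b
      rw [hh, Matrix.mul_diagonal, Matrix.diagonal_mul, w_entry hw]
      split_ifs with h2
      · rw [h2, prev, sub_add_cancel, mul_comm]
      · rw [h2, prev, sub_add_cancel, mul_comm]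
      · simp
    have hwi : (w : Matrix (Fin (n + 1)) (Fin (n + 1)) K) * ((w⁻¹ : Matrix.SpecialLinearGroup (Fin (n + 1)) K) :
        Matrix (Fin (n + 1)) (Fin (n + 1)) K) = 1 := by
      rw [← Matrix.SpecialLinearGroup.coe_mul, mul_inv_cancel, Matrix.SpecialLinearGroup.coe_one]
    have := congrArg (· * ((w⁻¹ : Matrix.SpecialLinearGroup (Fin (n + 1)) K) : Matrix (Fin (n + 1)) (Fin (n + 1)) K))
      (e.trans hkey.symm)
    simpa only [mul_assoc, hwi, mul_one] using this
  set e := d (0 + 1) / d (1 + 1) with he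
  have he0 : e ≠ 0 := div_ne_zero (hd _) (hd _)
  have hcD : ∀ c : K, D * transvection hone c * D⁻¹ = transvection hone (e * c) := fun c =>
    conj_diag hD (fun i => hd _) hone c
  have hch : ∀ c : K, h * transvection hone c * h⁻¹ = transvection hone ((k : K) ^ 2 * c) := fun c => by
    rw [conj_diag hh hd hone c, ← hd01]
  have hcomm : h * D = D * h := by
    refine Subtype.ext ?_
    show (h : Matrix (Fin (n + 1)) (Fin (n + 1)) K) * (D : Matrix (Fin (n + 1)) (Fin (n + 1)) K) = (D : Matrix (Fin (n + 1)) (Fin (n + 1)) K) * (h : Matrix (Fin (n + 1)) (Fin (n + 1)) K)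
    rw [hD, hh, Matrix.diagonal_mul_diagonal, Matrix.diagonal_mul_diagonal]
    congr 1; funext i; exact mul_comm _ _
  set A := x * D * x⁻¹ with hA'
  have hA : A ∈ H := by
    have : A = x * w * h * (x * w)⁻¹ := by rw [hA', hD']; group
    rw [this]; exact mul_mem (mul_mem huH hhH) (inv_mem huH)
  have hAD : A = transvection hone (1 - e) * D := by
    rw [hA', hxe]
    have e1 : D * (transvection hone (1 : K))⁻¹ = transvection hone (-e) * D := by
      have e2 := tinv hone (1 : K)
      rw [e2, show (-e : K) = e * -1 by ring, ← hcD, inv_mul_cancel_right]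
    rw [mul_assoc, e1, ← mul_assoc]
    rw [tmul, sub_eq_add_neg]
  have hk2 : (k : K) ^ 2 ≠ 1 := by
    intro h2
    have : orderOf k ∣ 2 := orderOf_dvd_of_pow_eq_one (Units.ext h2)
    rw [orderOf_eq_card_of_forall_mem_zpowers hk, Nat.card_eq_fintype_card, Fintype.card_units] at this
    have := Nat.le_of_dvd two_pos this
    omega
  have hν : transvection hone (((k : K) ^ 2 - 1) * (1 - e)) ∈ H := by
    have h1 : h * A * h⁻¹ * A⁻¹ ∈ H := mul_mem (mul_mem (mul_mem hhH hA) (inv_mem hhH)) (inv_mem hA)
    have h2 : h * A * h⁻¹ * A⁻¹ = h * transvection hone (1 - e) * h⁻¹ * (transvection hone (1 - e))⁻¹ := by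
      rw [hAD]
      calc h * (transvection hone (1 - e) * D) * h⁻¹ * (transvection hone (1 - e) * D)⁻¹
          = h * transvection hone (1 - e) * (D * h⁻¹ * D⁻¹) * (transvection hone (1 - e))⁻¹ := by group
        _ = _ := by rw [show D * h⁻¹ * D⁻¹ = h⁻¹ by
              rw [mul_inv_eq_iff_eq_mul, eq_inv_mul_iff_mul_eq, ← mul_assoc, hcomm, mul_inv_cancel_right]]
    rw [h2, hch] at h1
    have h3 : transvection hone ((k : K) ^ 2 * (1 - e)) * (transvection hone (1 - e))⁻¹ =
        transvection hone (((k : K) ^ 2 - 1) * (1 - e)) := by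
      rw [tinv, tmul]; congr 1; ring
    rwa [h3] at h1
  have he1 : e ≠ 1 := by
    intro h1
    rw [he, div_eq_one_iff_eq (hd _), zero_add] at h1
    by_cases hn1 : n = 1
    · subst hn1
      simp [d] at h1
      field_simp at h1
      exact hk2 h1.symm
    · have h2v : ((1 + 1 : Fin (n + 1)) : ℕ) = 2 := by
        rw [Fin.val_add, h1v, Nat.mod_eq_of_lt (by omega)]
      simp only [d, h1v, h2v, one_ne_zero, if_false, if_true, OfNat.ofNat_ne_zero, OfNat.ofNat_ne_one,
        Units.val_inv_eq_inv_val, inv_eq_one] at h1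
      exact hk2 (by rw [h1, one_pow])
  set ν := ((k : K) ^ 2 - 1) * (1 - e)
  have hν0 : ν ≠ 0 := mul_ne_zero (sub_ne_zero.mpr hk2) (sub_ne_zero.mpr (Ne.symm he1))
  have hsq : ∀ a : K, a ^ 2 * ν ∈ params H hone := by
    intro a
    by_cases ha : a = 0
    · subst ha; simp only [ne_eq, OfNat.ofNat_ne_zero, not_false_eq_true, zero_pow, zero_mul]; exact zero_mem _
    obtain ⟨i, hi⟩ := Subgroup.mem_zpowers_iff.mp (hk (Units.mk0 a ha))
    obtain ⟨j, hj⟩ := mem_powers_iff_mem_zpowers.mpr (hk (Units.mk0 a ha))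
    have key : ∀ j : ℕ, (((k : K) ^ 2) ^ j) * ν ∈ params H hone := by
      intro j
      induction j with
      | zero => rw [pow_zero, one_mul]; exact hν
      | succ j ih =>
        show Matrix.SpecialLinearGroup.transvection hone _ ∈ H
        rw [pow_succ', mul_assoc, ← hch]
        exact mul_mem (mul_mem hhH ih) (inv_mem hhH)
    have hj' : (k : K) ^ j = a := by simpa using congrArg (fun u : Kˣ => (u : K)) hj
    have := key j
    rwa [← pow_mul, mul_comm 2 j, pow_mul, hj'] at this
  have hall : ∀ c : K, transvection hone c ∈ H := by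
    intro c
    obtain ⟨a, b, hab⟩ : ∃ a b : K, a ^ 2 + b ^ 2 = c / ν := by
      by_cases h2 : ringChar K = 2
      · obtain ⟨a, ha⟩ := FiniteField.isSquare_of_char_two h2 (c / ν)
        exact ⟨a, 0, by rw [ha]; ring⟩
      · obtain ⟨a, b, hab⟩ := FiniteField.exists_root_sum_quadratic (R := K) (f := Polynomial.X ^ 2)
          (g := Polynomial.X ^ 2 - Polynomial.C (c / ν)) (Polynomial.degree_X_pow 2)
          (Polynomial.degree_X_pow_sub_C (by norm_num) _) (FiniteField.odd_card_of_char_ne_two h2)
        exact ⟨a, b, by simp at hab; linear_combination hab⟩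
    have := (params H hone).add_mem (hsq a) (hsq b)
    rwa [← add_mul, hab, div_mul_cancel₀ c hν0] at this
  have hwH : w ∈ H := by
    have h1 := mul_mem (inv_mem (hall 1)) huH
    rwa [← hxe, inv_mul_cancel_left] at h1
  exact gen_of_full hw hn H hwH fun _ c => hall c

theorem gen_small [Fintype K] (hK : Fintype.card K ≤ 3) (hn : 1 ≤ n)
    (x w : Matrix.SpecialLinearGroup (Fin (n + 1)) K)
    (hx : (x : Matrix (Fin (n + 1)) (Fin (n + 1)) K) = Matrix.transvection (0 : Fin (n + 1)) (1 : Fin (n + 1)) 1)
    (hw : (w : Matrix (Fin (n + 1)) (Fin (n + 1)) K) =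
      Matrix.of (fun i j => if j.val = i.val + 1 then 1 else if i.val = n ∧ j.val = 0 then (-1) ^ n else 0)) :
    Subgroup.closure ({x, w} : Set (Matrix.SpecialLinearGroup (Fin (n + 1)) K)) = ⊤ := by
  classical
  set H := Subgroup.closure ({x, w} : Set (Matrix.SpecialLinearGroup (Fin (n + 1)) K))
  refine gen_of_full hw hn H (Subgroup.subset_closure (by simp)) fun h c => ?_
  have h1 : (1 : K) ∈ params H h := by
    show transvection h (1 : K) ∈ H
    rw [show transvection h (1 : K) = x from Subtype.ext ((transvection_coe h 1).trans hx.symm)]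
    exact Subgroup.subset_closure (by simp)
  have hmem : ({0, 1, -1} : Finset K) = Finset.univ ∨ Fintype.card K = 2 := by
    by_cases h2 : Fintype.card K = 2
    · exact Or.inr h2
    refine Or.inl (Finset.eq_univ_of_card _ ?_)
    have hK1 := Fintype.one_lt_card (α := K)
    have h3 : Fintype.card K = 3 := by omega
    have hne : (1 : K) ≠ -1 := by
      intro e
      have : (2 : K) = 0 := by linear_combination e
      haveI : CharP K 2 := CharTwo.of_one_ne_zero_of_two_eq_zero one_ne_zero this
      obtain ⟨m, -, hm⟩ := FiniteField.card K 2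
      rw [h3] at hm
      have : 2 ∣ 3 := hm ▸ dvd_pow_self 2 m.ne_zero
      omega
    rw [h3, Finset.card_eq_three]
    exact ⟨0, 1, -1, zero_ne_one, (neg_ne_zero.mpr one_ne_zero).symm, hne, rfl⟩
  rcases hmem with hm | hm
  · have hc : c ∈ ({0, 1, -1} : Finset K) := hm ▸ Finset.mem_univ c
    simp only [Finset.mem_insert, Finset.mem_singleton] at hc
    rcases hc with rfl | rfl | rfl
    · exact (params H h).zero_mem
    · exact h1
    · exact (params H h).neg_mem h1
  · by_cases hc : c = 0
    · subst hc; exact (params H h).zero_mem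
    · have : c = 1 := by
        have := FiniteField.pow_card_sub_one_eq_one c hc
        rwa [hm, pow_one] at this
      subst this; exact h1

end CfsgLib.SLGenTwo
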